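import Cfsg.Agent.WG.Lin
import Cfsg.Agent.Class.GLStab
import Cfsg.Agent.Comp.MatSL
import Cfsg.Agent.L4Q.Link
import Cfsg.Agent.Grp.Cores

/-! The affine group `3³ : SL₃(3)` as a maximal parabolic subgroup of `L₄(3)`. -/

set_option autoImplicit false

namespace Cfsg.Agent.L43

open Subgroup Cfsg Matrix Multiplicative Cfsg.Agent.WG Cfsg.Agent.Class.GLStab

/-- the matrix of an affine map -/
def aff (M : Matrix (Fin 3) (Fin 3) (ZMod 3)) (v : Fin 3 → ZMod 3) : Matrix (Fin 4) (Fin 4) (ZMod 3) :=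
  !![M 0 0, M 0 1, M 0 2, v 0; M 1 0, M 1 1, M 1 2, v 1; M 2 0, M 2 1, M 2 2, v 2; 0, 0, 0, 1]

theorem det_aff (M v) : (aff M v).det = M.det := by
  rw [det_succ_row _ 3]
  simp [aff, Fin.sum_univ_succ, det_fin_three, Fin.succAbove, (by decide : (-1 : ZMod 3) ^ 6 = 1)]

theorem aff_apply (M v) (i : Fin 3) : (∀ j, aff M v i.castSucc j.castSucc = M i j) ∧
    aff M v i.castSucc 3 = v i ∧ aff M v 3 i.castSucc = 0 ∧ aff M v 3 3 = 1 := by
  fin_cases i <;> exact ⟨fun j => by fin_cases j <;> rfl, rfl, rfl, rfl⟩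

theorem aff_mul (M N v w) : aff (M * N) (v + M *ᵥ w) = aff M v * aff N w := by
  ext i j
  fin_cases i <;> fin_cases j <;> simp [aff, mul_apply, mulVec, dotProduct, Fin.sum_univ_succ] <;> ring

theorem coatom_of {G H : Type*} [Group G] [Group H] {f : G →* H} (s : Function.Surjective f)
    {M : Subgroup H} (h : IsCoatom (M.comap f)) : IsCoatom M :=
  ⟨fun a => h.1 (by rw [a, comap_top]), fun _ a => comap_injective s
    ((h.2 _ ((comap_mono a.le).lt_of_ne ((comap_injective s).ne a.ne))).trans (comap_top f).symm)⟩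

theorem coatom_stab {F : Type*} [Field F] : IsCoatom ((stab (coord F 4 3)).comap
    (SpecialLinearGroup.toGL : SpecialLinearGroup (Fin 4) F →* _)) := by
  have r := finrank_coord (F := F) (by decide : 3 ≤ 4)
  exact isCoatom_comap_stab (fun a => by rw [a] at r; simp at r) (fun a => by rw [a] at r; simp at r) _
    fun g a => ⟨⟨g.1, a⟩, Units.ext rfl⟩

theorem affine {G : Type*} [Group G] [Finite G] {α : Multiplicative (Fin 3 → ZMod 3) →* G}
    (i : Function.Injective α) [n : α.range.Normal] (no2 : ∀ H : Subgroup G, H.index ≠ 2)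
    (c : centralizer (α.range : Set G) = α.range) {H : Subgroup G} (k : IsComplement' α.range H)
    (d : Nat.card G = 151632) (o : pCore 3 G = α.range) :
    ∃ P : Subgroup (ProjectiveSpecialLinearGroup (Fin 4) (ZMod 3)), IsCoatom P ∧
      Nat.card (pCore 3 P) = 27 ∧ Nonempty (P ⧸ pCore 3 P ≃* SpecialLinearGroup (Fin 3) (ZMod 3)) ∧
      Nonempty (G ≃* P) := by
  choose f hf using fun g => exists_act i ((normalizer_eq_top_iff.2 n).ge (mem_top g))
  let F : G →* Matrix (Fin 3) (Fin 3) (ZMod 3) := ⟨⟨f, (hf 1).unique i act_one⟩,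
    fun a b => (hf (a * b)).unique i ((hf a).mul (hf b))⟩
  have f1 : ∀ {g}, f g = 1 ↔ g ∈ α.range := fun {g} => by
    rw [← c, ← act_one_iff]; exact ⟨fun e => e ▸ hf g, (hf g).unique i⟩
  have dt : ∀ g, (f g).det = 1 := fun g => by
    have a := (detMonoidHom.comp F).toHomUnits.range.card_subgroup_dvd_card
    rw [← index_ker, Nat.card_eq_fintype_card, ZMod.card_units] at a
    exact congrArg Units.val ((index_eq_one.1 (((Nat.dvd_prime Nat.prime_two).1 a).resolve_right
      (no2 _))).ge (mem_top g))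
  let ρ : G →* SpecialLinearGroup (Fin 3) (ZMod 3) :=
    MonoidHom.mk' (fun g => ⟨f g, dt g⟩) fun a b => Subtype.ext (F.map_mul a b)
  have kρ : ρ.ker = α.range := Subgroup.ext fun g => Subtype.ext_iff.trans f1
  have cA : Nat.card α.range = 27 := by
    rw [← Nat.card_congr (MonoidHom.ofInjective i).toEquiv]; simp
  have sρ : Function.Surjective ρ := by
    have a := ρ.ker.card_mul_index
    rw [index_ker, kρ, cA, d] at a
    rw [← MonoidHom.range_eq_top, ← card_eq_iff_eq_top, Comp.Kron.card_SL_of (q := 3) (M := 5616)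
      (ZMod.card 3) (by simp [Fin.prod_univ_succ])]
    omega
  choose κ η hη e using fun g => show ∃ v, ∃ h ∈ H, α (ofAdd v) * h = g from by
    obtain ⟨⟨⟨_, v, rfl⟩, h⟩, e, -⟩ := k.existsUnique g
    exact ⟨v, h, h.2, e⟩
  have u : ∀ {v h}, h ∈ H → κ (α (ofAdd v) * h) = v := fun {v h} a => ofAdd.injective (i (by
    have := (k.existsUnique (α (ofAdd v) * h)).unique (y₁ := (⟨_, _, rfl⟩, ⟨_, hη _⟩))
      (y₂ := (⟨_, _, rfl⟩, ⟨h, a⟩)) (e _) rfl
    exact congrArg (·.1.1) this))
  have fη : ∀ g, f (η g) = f g := fun g => by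
    conv_rhs => rw [← e g]
    rw [show f _ = _ from F.map_mul _ _, show F _ = 1 from f1.2 ⟨_, rfl⟩, one_mul]; rfl
  have cκ : ∀ a b, κ (a * b) = κ a + f a *ᵥ κ b := fun a b => by
    rw [← u (v := κ a + _) (mul_mem (hη a) (hη b)), ofAdd_add, map_mul, ← fη, ← hf]
    conv_lhs => rw [← e a, ← e b]
    simp only [mul_assoc, inv_mul_cancel_left]
  let Ψ : G →* SpecialLinearGroup (Fin 4) (ZMod 3) :=
    MonoidHom.mk' (fun g => ⟨aff (f g) (κ g), (det_aff ..).trans (dt g)⟩) fun a b =>
      Subtype.ext ((congrArg₂ aff (F.map_mul a b) (cκ a b)).trans (aff_mul ..))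
  let π := (QuotientGroup.mk' (center _)).comp Ψ
  have iπ : Function.Injective π := (injective_iff_map_eq_one π).2 fun g a => by
    obtain ⟨l, b⟩ := (L4Q.mk_eq_iff (Ψ g) 1).1 a
    have b' : ∀ i j, aff (f g) (κ g) i j = _ := fun i j => congrFun (congrFun b i) j
    obtain rfl : l = 1 := by simpa [(aff_apply _ _ 0).2.2.2] using (b' 3 3).symm
    obtain ⟨v, rfl⟩ := f1.1 (show f g = 1 by
      ext i j; simpa [(aff_apply _ _ i).1, one_apply] using b' i.castSucc j.castSucc)
    have := u (v := v.toAdd) H.one_mem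
    rw [mul_one, ofAdd_toAdd] at this
    rw [show v = 1 from toAdd.injective (this ▸ funext fun i => by
      simpa [(aff_apply _ _ i).2.1, one_apply, show i.castSucc ≠ 3 from (Fin.castSucc_lt_last i).ne] using
        b' i.castSucc 3), map_one]
  have e := MonoidHom.ofInjective iπ
  have q := Grp.map_pCore_equiv 3 e
  refine ⟨π.range, ?_, ?_, ⟨(QuotientGroup.congr _ _ e (by rw [← q, o, kρ])).symm.trans
    (QuotientGroup.quotientKerEquivOfSurjective ρ sρ)⟩, ⟨e⟩⟩
  · have s := QuotientGroup.mk'_surjective (center (SpecialLinearGroup (Fin 4) (ZMod 3)))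
    refine coatom_of s ?_
    suffices π.range.comap (QuotientGroup.mk' _) = (stab (coord (ZMod 3) 4 3)).comap
      SpecialLinearGroup.toGL from this ▸ coatom_stab
    ext s
    rw [mem_comap, mem_comap, mem_stab_coord]
    constructor
    · rintro ⟨g, a⟩ i j b c
      obtain ⟨l, a⟩ := (L4Q.mk_eq_iff s (Ψ g)).1 a.symm
      rw [show (SpecialLinearGroup.toGL s).1 = l • aff (f g) (κ g) from a]
      fin_cases i <;> fin_cases j <;> simp [aff] at b c ⊢
    intro a
    have a' : ∀ j : Fin 3, s.1 3 j.castSucc = 0 := fun j => a 3 _ le_rfl j.2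
    have b : ∀ l, l * s.1 3 3 = 1 → l • s.1 = aff (l • s.1.submatrix Fin.castSucc Fin.castSucc)
        fun i => l * s.1 i.castSucc 3 := fun l b => by
      have a0 := a' 0; have a1 := a' 1; have a2 := a' 2
      ext i j
      fin_cases i <;> fin_cases j <;> first | rfl | simp_all [aff]
    have l : s.1 3 3 * s.1 3 3 = 1 := (by decide : ∀ l : ZMod 3, l ≠ 0 → l * l = 1) _ fun e =>
      one_ne_zero (s.2.symm.trans (det_eq_zero_of_row_eq_zero 3 (Fin.lastCases e a')))
    replace b := b _ l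
    obtain ⟨g, c⟩ := sρ ⟨_, (det_aff ..).symm.trans (by
      rw [← b, det_smul, s.2, mul_one, Fintype.card_fin, pow_succ, pow_three, l, mul_one, l])⟩
    refine ⟨α (ofAdd ((fun i => s.1 3 3 * s.1 i.castSucc 3) - κ g)) * g,
      (L4Q.mk_eq_iff _ _).2 ⟨_, Eq.trans ?_ b.symm⟩⟩
    have j : F (α (ofAdd ((fun i => s.1 3 3 * s.1 i.castSucc 3) - κ g))) = 1 := f1.2 ⟨_, rfl⟩
    refine congrArg₂ aff ((F.map_mul ..).trans (by rw [j, one_mul]; exact congrArg Subtype.val c)) ?_
    rw [cκ, show f _ = 1 from j, one_mulVec, ← mul_one (α _), u H.one_mem, sub_add_cancel]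
  · rw [← q, card_map_of_injective e.injective, o, cA]

end Cfsg.Agent.L43
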